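import Cfsg.Agent.H967.Sph.Count

/-!
# Functions of the state (helper739, for S4612)
-/

set_option autoImplicit false
set_option linter.unusedSectionVars false

namespace Cfsg.Agent.H739.PQ.E8L

open Cfsg Cfsg.Agent.H967.Sph
open CoxeterSystem Cfsg.Agent.ChevalleyStructure.CoxeterGeom Cfsg.Agent.Tits.Roots Cfsg.Agent.Tits.Core
  Cfsg.Agent.Tits.Exchange Cfsg.Agent.Nodes.Reps Cfsg.Agent.Nodes.BNOf Cfsg.Agent.Nodes.Bruhat
  Cfsg.Agent.Nodes.LeviDec

variable {I W Y : Type*} [Fintype I] [DecidableEq I] [Group W] [Finite W] [Group Y] {M : CoxeterMatrix I}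
  {cs : CoxeterSystem M W} {A : I → I → ℤ} {h : IsCartan M A} {p : ℕ} {T : Subgroup Y} {n : I → Y}
  {X : (I → ℤ) → Subgroup Y} (R : RGD cs h p T n X) (hG : GG cs h T X = ⊤) {j : I} {N m : ℕ} (t : Tab A j N m)

include hG in
/-- functions invariant under the parabolic subgroup on the left and `B` on the right are functions of the state -/
theorem exists_state_fun (F : Y → ℚ) (hl : ∀ y ∈ PJ cs h T X {i | i ≠ j}, ∀ g, F (y * g) = F g)
    (hr : ∀ y ∈ RGD.B cs h T X, ∀ g, F (g * y) = F g) :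
    ∃ ψ : Fin N → ℚ, (∀ g, F g = ψ (stY R hG t g)) ∧ ∀ w k, Rp cs R.nsys w k → ψ (t.sw cs h w) = F k := by
  choose k hk using fun w : W => exists_rp cs R.nsys w
  choose r hr' using fun s : Fin N => t.exists_sw cs h s
  have hB : ∀ y ∈ RGD.B cs h T X, ∀ g, F (y * g) = F g := fun y hy g => hl y (B_le_PJ hy) g
  have h1 : ∀ (w : W) (g : Y), Cell R.nsys cs h X w g → F g = F (k w) := by
    rintro w g ⟨b₁, hb₁, l, hl', b₂, hb₂, rfl⟩
    rw [hr _ hb₂, hB _ hb₁]
    have h2 : l = k w * ((k w)⁻¹ * l) := by group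
    rw [h2, hr _ (RGD.T_le_B ((hk w).unique hl'))]
  have h2 : ∀ w, F (k w) = F (k (r (t.sw cs h w))) := by
    intro w
    have h3 := t.mem_WJ_of_sw cs h (hr' (t.sw cs h w))
    have h4 : w = w * (r (t.sw cs h w))⁻¹ * r (t.sw cs h w) := by group
    have h5 : Rp cs R.nsys w (k (w * (r (t.sw cs h w))⁻¹) * k (r (t.sw cs h w))) := by
      have h6 := (hk (w * (r (t.sw cs h w))⁻¹)).mul (hk (r (t.sw cs h w)))
      rwa [← h4] at h6
    rw [← h1 w _ (cell_of_rp h5)]
    exact hl _ (LJ_le_PJ (rp_mem_LJ R h3 (hk _))) _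
  refine ⟨fun s => F (k (r s)), fun g => ?_, fun w l hw => ?_⟩
  · rw [h1 _ g (cell_wOf R hG g), h2]
    rfl
  · show F (k (r (t.sw cs h w))) = F l
    rw [← h2, ← h1 w l (cell_of_rp hw)]

include hG R in
/-- invariance under `n i` on the right -/
theorem st_eq_of_right {F : Y → ℚ} {ψ : Fin N → ℚ} (hψ : ∀ w k, Rp cs R.nsys w k → ψ (t.sw cs h w) = F k) {i : I}
    (hi : ∀ g, F (g * n i) = F g) (s : Fin N) : ψ (t.st i s) = ψ s := by
  obtain ⟨w, rfl⟩ := t.exists_sw cs h s
  obtain ⟨k, hk⟩ := exists_rp cs R.nsys w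
  rw [← t.sw_mul_simple, hψ _ _ (hk.mul (rp_simple cs R.nsys i)), hi, hψ _ _ hk]

/-- a function of the state which is constant under the reflections in `J` is invariant under `P_J` -/
theorem mul_right_of_st {α : Type*} {φ : Fin N → α} {J : Set I} (hφ : ∀ i ∈ J, ∀ s, φ (t.st i s) = φ s) {y : Y}
    (hy : y ∈ PJ cs h T X J) (g : Y) : φ (stY R hG t (g * y)) = φ (stY R hG t g) := by
  have key : ∀ (v : W), v ∈ WJ cs J → ∀ (k : Y), Rp cs R.nsys v k → ∀ g,
      φ (stY R hG t (g * k)) = φ (stY R hG t g) := by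
    intro v hv
    obtain ⟨ω, hω, rfl⟩ := exists_word_of_mem_WJ cs hv
    clear hv
    induction ω with
    | nil =>
      intro k hk g
      rw [wordProd_nil] at hk
      rw [stY_mul_right_B R hG t g (RGD.T_le_B hk.mem_of_one)]
    | cons i ω ih =>
      intro k hk g
      rw [wordProd_cons] at hk
      have hi : i ∈ J := hω i (by simp)
      have h1 : Rp cs R.nsys (cs.wordProd ω) ((n i)⁻¹ * k) := by
        have := (rp_simple cs R.nsys i).inv.mul hk
        rwa [inv_simple, simple_mul_simple_cancel_left] at this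
      have h2 := ih (fun l hl => hω l (by simp [hl])) _ h1 (g * n i)
      have h3 : g * n i * ((n i)⁻¹ * k) = g * k := by group
      rw [← h3, h2]
      rcases nonneg_or_nonpos cs h (wOf R hG g) i with h0 | h0
      · have h4 := stY_pos R hG t h0 (one_mem (X (sr i)))
        rw [mul_one] at h4
        rw [h4, hφ i hi]
      · obtain ⟨x₀, hx₀, h4, h5⟩ := stY_neg R hG t h0
        by_cases h6 : (1 : Y) = x₀
        · rw [← h6, mul_one] at h4
          rw [h4, hφ i hi]
        · have h7 := h5 1 (one_mem _) h6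
          rw [mul_one] at h7
          rw [h7]
  obtain ⟨v, hv, b₁, hb₁, k, hk, b₂, hb₂, rfl⟩ := (mem_PJ_iff_cell R).1 hy
  rw [← mul_assoc, stY_mul_right_B R hG t _ hb₂, ← mul_assoc, key v hv k hk, stY_mul_right_B R hG t _ hb₁]

end Cfsg.Agent.H739.PQ.E8L
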