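import Cfsg.Agent.H996.PQ.Val
import Cfsg.Agent.Characters.ClassMul
import Cfsg.Agent.Blocks.Orthogonality

/-!
# The isotypic functions on a group (helper739, for S4612)

`Iso χ F`: the class sums act on `F : Y → ℚ` by the central character of `χ`. Closed under translations, linear
combinations, inversion; contains the spherical functions of `χ`.
-/

set_option autoImplicit false
set_option linter.unusedSectionVars false

namespace Cfsg.Agent.H739.PQ.E8L

open Cfsg Cfsg.Agent.H967.Sph Cfsg.Agent.H996.PQ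
open CoxeterSystem Cfsg.Agent.ChevalleyStructure.CoxeterGeom Cfsg.Agent.Tits.Roots Cfsg.Agent.Tits.Core
  Cfsg.Agent.Nodes.Reps Cfsg.Agent.Nodes.BNOf Cfsg.Agent.Nodes.Bruhat Cfsg.Agent.Nodes.LeviDec

universe u

section Abs

variable {Y : Type u} [Group Y] [Finite Y] {χ : Y → ℂ}

/-- the class sums act on `F` by the central character -/
def Iso (χ : Y → ℂ) (F : Y → ℚ) : Prop :=
  ∀ g y : Y, ∑ᶠ h : {h : Y // IsConj g h}, ((F (h * y) : ℚ) : ℂ) = centralChar χ g * (F y : ℂ)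

theorem Iso.add {F G : Y → ℚ} (hF : Iso χ F) (hG : Iso χ G) : Iso χ (F + G) := by
  intro g y
  have h1 : ∀ h : {h : Y // IsConj g h}, (((F + G) (h * y) : ℚ) : ℂ) = (F (h * y) : ℂ) + (G (h * y) : ℂ) := by
    intro h
    rw [Pi.add_apply]
    push_cast
    rfl
  rw [finsum_congr h1, finsum_add_distrib (Set.toFinite _) (Set.toFinite _), hF g y, hG g y, Pi.add_apply]
  push_cast
  ring

theorem Iso.smul {F : Y → ℚ} (hF : Iso χ F) (c : ℚ) : Iso χ (c • F) := by
  intro g y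
  have h1 : ∀ h : {h : Y // IsConj g h}, (((c • F) (h * y) : ℚ) : ℂ) = (c : ℂ) * (F (h * y) : ℂ) := by
    intro h
    rw [Pi.smul_apply, smul_eq_mul]
    push_cast
    rfl
  rw [finsum_congr h1, ← mul_finsum _ _, hF g y, Pi.smul_apply, smul_eq_mul]
  push_cast
  ring

theorem Iso.zero : Iso χ (0 : Y → ℚ) := by
  intro g y
  simp

/-- the submodule -/
def isoS (χ : Y → ℂ) : Submodule ℚ (Y → ℚ) where
  carrier := {F | Iso χ F}
  add_mem' := fun h1 h2 => Iso.add h1 h2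
  zero_mem' := Iso.zero
  smul_mem' := fun c _ h => Iso.smul h c

theorem Iso.sum {ι : Type*} (s : Finset ι) {F : ι → Y → ℚ} (hF : ∀ i ∈ s, Iso χ (F i)) :
    Iso χ (fun y => ∑ i ∈ s, F i y) := by
  have h1 : (∑ i ∈ s, F i) ∈ isoS χ := Submodule.sum_mem _ hF
  have h2 : (fun y => ∑ i ∈ s, F i y) = ∑ i ∈ s, F i := by
    funext y
    rw [Finset.sum_apply]
  rw [h2]
  exact h1

theorem Iso.right {F : Y → ℚ} (hF : Iso χ F) (b : Y) : Iso χ (fun y => F (y * b)) := by
  intro g y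
  have h1 := hF g (y * b)
  rw [← h1]
  refine finsum_congr fun h => ?_
  show ((F ((h : Y) * y * b) : ℚ) : ℂ) = _
  rw [mul_assoc]

/-- conjugation on a conjugacy class -/
def conjClassEquiv (g a : Y) : {h : Y // IsConj g h} ≃ {h : Y // IsConj g h} where
  toFun h := ⟨a * h * a⁻¹, h.2.trans (isConj_iff.2 ⟨a, rfl⟩)⟩
  invFun h := ⟨a⁻¹ * h * a, h.2.trans (isConj_iff.2 ⟨a⁻¹, by rw [inv_inv]⟩)⟩
  left_inv h := Subtype.ext (by
    show a⁻¹ * (a * h * a⁻¹) * a = (h : Y)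
    group)
  right_inv h := Subtype.ext (by
    show a * (a⁻¹ * h * a) * a⁻¹ = (h : Y)
    group)

theorem Iso.left {F : Y → ℚ} (hF : Iso χ F) (a : Y) : Iso χ (fun y => F (a * y)) := by
  intro g y
  rw [← hF g (a * y)]
  refine finsum_eq_of_bijective (conjClassEquiv g a) (conjClassEquiv g a).bijective fun h => ?_
  show ((F (a * (h * y)) : ℚ) : ℂ) = ((F (a * h * a⁻¹ * (a * y)) : ℚ) : ℂ)
  congr 2
  group

theorem centralChar_inv (hr : ∀ g, χ g⁻¹ = χ g) (g : Y) :
    centralChar χ g⁻¹ = centralChar χ g := by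
  unfold centralChar
  rw [hr]
  congr 4
  ext x
  rw [Subgroup.mem_centralizer_singleton_iff, Subgroup.mem_centralizer_singleton_iff]
  constructor
  · intro h1
    have h2 : Commute x g⁻¹ := h1
    have h3 := h2.inv_right
    rw [inv_inv] at h3
    exact h3
  · intro h1
    have h2 : Commute x g := h1
    exact h2.inv_right

theorem Iso.inv (hr : ∀ g, χ g⁻¹ = χ g) {F : Y → ℚ} (hF : Iso χ F) :
    Iso χ (fun y => F y⁻¹) := by
  intro g y
  rw [← centralChar_inv hr, ← hF g⁻¹ y⁻¹]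
  refine finsum_eq_of_bijective
    (e := fun h : {h : Y // IsConj g h} => (⟨y⁻¹ * (h : Y)⁻¹ * y, ?_⟩ : {h : Y // IsConj g⁻¹ h})) ?_ ?_
  · obtain ⟨c, hc⟩ := isConj_iff.1 h.2
    refine isConj_iff.2 ⟨y⁻¹ * c, ?_⟩
    rw [← hc]
    group
  · constructor
    · rintro ⟨a, ha⟩ ⟨b, hb⟩ hab
      have h1 := congrArg Subtype.val hab
      have h2 : y⁻¹ * a⁻¹ * y = y⁻¹ * b⁻¹ * y := h1
      exact Subtype.ext (inv_injective (mul_left_cancel (mul_right_cancel h2)))
    · rintro ⟨b, hb⟩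
      refine ⟨⟨y * b⁻¹ * y⁻¹, ?_⟩, Subtype.ext ?_⟩
      · obtain ⟨c, hc⟩ := isConj_iff.1 hb
        refine isConj_iff.2 ⟨y * c, ?_⟩
        rw [← hc]
        group
      · show y⁻¹ * (y * b⁻¹ * y⁻¹)⁻¹ * y = b
        group
  · intro h
    show ((F ((h : Y) * y)⁻¹ : ℚ) : ℂ) = ((F (y⁻¹ * (h : Y)⁻¹ * y * y⁻¹) : ℚ) : ℂ)
    congr 2
    group

end Abs

section Sph

variable {I W : Type*} {Y : Type u} [Fintype I] [DecidableEq I] [Group W] [Finite W] [Group Y] [Finite Y]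
    {M : CoxeterMatrix I} {cs : CoxeterSystem M W} {A : I → I → ℤ} {h : IsCartan M A} {p : ℕ} {T : Subgroup Y}
    {n : I → Y} {X : (I → ℤ) → Subgroup Y} (R : RGD cs h p T n X) (hG : GG cs h T X = ⊤)
    {j : I} {N m : ℕ} (t : Tab A j N m)

/-- the spherical function is isotypic -/
theorem iso_of_hasVal {χ : Y → ℂ} {d : ℕ} {a : Fin m → ℚ} (H : HasVal R hG t χ d a) :
    Iso χ (fun g => a (t.cls (stY R hG t g))) := by
  classical
  intro g y
  have := Fintype.ofFinite Y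
  have := Fintype.ofFinite (PJ cs h T X {i | i ≠ j})
  have hP : (Nat.card (PJ cs h T X {i | i ≠ j}) : ℂ) ≠ 0 := Nat.cast_ne_zero.2 Nat.card_pos.ne'
  have h1 : ∀ g, (Nat.card (PJ cs h T X {i | i ≠ j}) : ℂ) * ((a (t.cls (stY R hG t g)) : ℚ) : ℂ) =
      ∑ q : PJ cs h T X {i | i ≠ j}, χ (g * q) := by
    intro g
    rw [← H.coset g, finsum_subgroup]
  refine mul_left_cancel₀ hP ?_
  rw [mul_left_comm, h1, mul_finsum _ _, finsum_congr fun h => h1 _, finsum_eq_sum_of_fintype, Finset.sum_comm,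
    Finset.mul_sum]
  refine Finset.sum_congr rfl fun q _ => ?_
  have h2 := Characters.ClassMul.sum_class_char_mul H.irr g (y * q)
  have h3 : ∑ h : {h : Y // IsConj g h}, χ (h * y * q) = ∑ u with IsConj g u, χ (u * (y * q)) := by
    rw [Finset.sum_subtype (Finset.univ.filter fun u => IsConj g u) (p := fun u => IsConj g u) (fun u => by simp)
      (fun u => χ (u * (y * q)))]
    exact Finset.sum_congr rfl fun u _ => by rw [mul_assoc]
  rw [h3, h2]
  unfold centralChar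
  ring

/-- the operators `T_i` -/
theorem Iso.opT {χ : Y → ℂ} {F : Y → ℚ} (hF : Iso χ F) (i : I) : Iso χ (H967.Sph.opT X n i F) := by
  classical
  have := Fintype.ofFinite (X (sr i))
  have h1 : H967.Sph.opT X n i F = fun g => ∑ x : X (sr i), F (g * (x * n i)) := by
    funext g
    rw [opT_apply, finsum_eq_sum_of_fintype]
    exact Finset.sum_congr rfl fun x _ => by rw [mul_assoc]
  rw [h1]
  exact Iso.sum _ fun x _ => hF.right _

/-- the average over a subgroup -/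
theorem Iso.avg {χ : Y → ℂ} {F : Y → ℚ} (hF : Iso χ F) (P : Subgroup Y) [Fintype P] :
    Iso χ (fun g => ∑ z : P, F (g * z)) := Iso.sum _ fun _ _ => hF.right _

/-- the values are real -/
theorem real_of_hasVal {χ : Y → ℂ} {d : ℕ} {a : Fin m → ℚ} (H : HasVal R hG t χ d a) (g : Y) : χ g⁻¹ = χ g := by
  have h1 := Cfsg.Agent.Blocks.Orthogonality.irr_apply_inv H.irr g
  rw [h1]
  have h2 := H.val g
  have h3 : (Nat.card Y : ℂ) ≠ 0 := Nat.cast_ne_zero.2 Nat.card_pos.ne'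
  have h4 : χ g = (((d : ℚ) * (∑ᶠ y : Y, a (t.cls (stY R hG t (y⁻¹ * g * y)))) / Nat.card Y : ℚ) : ℂ) := by
    push_cast
    rw [eq_div_iff h3, mul_comm, h2]
  rw [h4]
  exact map_ratCast (starRingEnd ℂ) _

end Sph

end Cfsg.Agent.H739.PQ.E8L
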